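import Cfsg.Agent.SF.C

/-! The abstract group `(Z_N × Z_N) ⋊ (Z₂ × Z₂)`, and norm one elements of `F[i]`. -/

set_option autoImplicit false
set_option linter.unusedSectionVars false

namespace G2

open Cfsg Subgroup FT H4

section
variable {G : Type*} [Group G] [Finite G]

structure Pres (k : ℕ) (x y s r : G) : Prop where
  ox : orderOf x = 2 ^ (k + 2)
  oy : orderOf y = 2 ^ (k + 2)
  cm : x * y = y * x
  inf : zpowers x ⊓ zpowers y = ⊥
  ss : s * s = 1
  rr : r * r = 1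
  sr : s * r = r * s
  sx : s * x * s⁻¹ = y
  rx : r * x * r⁻¹ = x⁻¹
  ry : r * y * r⁻¹ = y⁻¹

namespace Pres
variable {k : ℕ} {x y s r : G} (h : Pres k x y s r)
include h

theorem sy : s * y * s⁻¹ = x := by
  rw [← h.sx, show s * (s * x * s⁻¹) * s⁻¹ = (s * s) * x * (s * s)⁻¹ by group, h.ss]; simp

theorem nxy : zpowers y ≤ Nor (zpowers x) :=
  zpowers_le.2 (centralizer_le_normalizer _ (mem_centralizer_iff.2 fun _ ⟨n, e⟩ =>
    e ▸ (show Commute x y from h.cm).zpow_left n))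

theorem memT {t : G} (ht : t ∈ zpowers x ⊔ zpowers y) : ∃ i j : ℤ, t = x ^ i * y ^ j := by
  obtain ⟨_, ⟨i, rfl⟩, _, ⟨j, rfl⟩, rfl⟩ := (H5.mem_sup_left_iff h.nxy).1 ht
  exact ⟨i, j, rfl⟩

omit h in
theorem nor_of {g : G} (a : g * x * g⁻¹ ∈ zpowers x ⊔ zpowers y)
    (b : g * y * g⁻¹ ∈ zpowers x ⊔ zpowers y) : g ∈ Nor (zpowers x ⊔ zpowers y) :=
  mem_normalizer_of_conjS_le (map_le_iff_le_comap.2 (sup_le (zpowers_le.2 a) (zpowers_le.2 b)))

theorem sN : s ∈ Nor (zpowers x ⊔ zpowers y) :=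
  nor_of (by rw [h.sx]; exact mem_sup_right (mem_zpowers y))
    (by rw [h.sy]; exact mem_sup_left (mem_zpowers x))

theorem rN : r ∈ Nor (zpowers x ⊔ zpowers y) :=
  nor_of (h.rx ▸ mem_sup_left (inv_mem (mem_zpowers x)))
    (h.ry ▸ mem_sup_right (inv_mem (mem_zpowers y)))

theorem rN' : r ∈ Nor (zpowers x ⊔ zpowers y ⊔ zpowers s) :=
  mem_normalizer_of_conjS_le (map_le_iff_le_comap.2 (sup_le
    (fun t ht => mem_sup_left ((mem_normalizer_iff.1 h.rN t).1 ht))
    (zpowers_le.2 (mem_sup_right (by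
      show r * s * r⁻¹ ∈ _
      rw [← h.sr, mul_inv_cancel_right]; exact mem_zpowers s)))))

theorem card (hs : s ∉ zpowers x ⊔ zpowers y) (hr : r ∉ zpowers x ⊔ zpowers y ⊔ zpowers s) :
    Nat.card ↥(zpowers x ⊔ zpowers y ⊔ zpowers s ⊔ zpowers r) = 4 * (2 ^ (k + 2)) ^ 2 := by
  rw [SF.card_sup_zp h.rN' (h.rr ▸ one_mem _) hr, SF.card_sup_zp h.sN (h.ss ▸ one_mem _) hs,
    H5.card_sup_of_disjoint h.nxy h.inf, Nat.card_zpowers, Nat.card_zpowers, h.ox, h.oy]
  ring

theorem eq1 {i j : ℤ} (e : x ^ i = y ^ j) : x ^ i = 1 :=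
  mem_bot.1 (h.inf ▸ ⟨zpow_mem (mem_zpowers x) i, e ▸ zpow_mem (mem_zpowers y) j⟩)

theorem x2 : x ^ 2 ≠ 1 := fun e => by
  have := orderOf_dvd_of_pow_eq_one e
  rw [h.ox, pow_add] at this
  have := Nat.le_of_dvd two_pos this
  have : 0 < 2 ^ k := by positivity
  omega

theorem cen {c : G} (hc : c ∈ zpowers x ⊔ zpowers y ⊔ zpowers s ⊔ zpowers r) (cx : c * x = x * c)
    (cs : c * s = s * c) (cr : c * r = r * c) : c = 1 ∨ c = (x * y) ^ 2 ^ (k + 1) := by
  have xy : Commute x y := h.cm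
  have tx : ∀ t ∈ zpowers x ⊔ zpowers y, t * x * t⁻¹ = x := fun t ht => by
    obtain ⟨i, j, rfl⟩ := h.memT ht
    rw [((Commute.refl x).zpow_left i |>.mul_left (xy.symm.zpow_left j)).eq, mul_inv_cancel_right]
  have cx' : ∀ g, c * g * x * (c * g)⁻¹ = x → g * x * g⁻¹ = x := fun g e => by
    calc _ = c⁻¹ * (c * g * x * (c * g)⁻¹) * c := by group
      _ = x := by rw [e, mul_assoc, ← cx, inv_mul_cancel_left]
  have x1 : x ≠ 1 := fun e => h.x2 (by rw [e, one_pow])
  have cT : c ∈ zpowers x ⊔ zpowers y := by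
    rcases (SF.mem_sup_zp h.rN' (h.rr ▸ one_mem _)).1 hc with e | e <;>
      rcases (SF.mem_sup_zp h.sN (h.ss ▸ one_mem _)).1 e with e | e
    · exact e
    · have := cx' _ (tx _ e)
      rw [h.sx] at this
      exact absurd (by simpa using h.eq1 (i := 1) (j := 1) (by simpa using this.symm)) x1
    · have := cx' _ (tx _ e)
      rw [h.rx] at this
      exact absurd (by rw [pow_two]; nth_rewrite 1 [← this]; simp) h.x2
    · rw [mul_assoc] at e
      have := cx' _ (tx _ e)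
      rw [show r * s * x * (r * s)⁻¹ = r * (s * x * s⁻¹) * r⁻¹ by group, h.sx, h.ry] at this
      exact absurd (by simpa using h.eq1 (i := 1) (j := -1) (by simpa using this.symm)) x1
  obtain ⟨i, j, rfl⟩ := h.memT cT
  have c2 : Commute (x ^ i) (y ^ j) := xy.zpow_zpow i j
  have e1 : x ^ i * y ^ j = x ^ (-i) * y ^ (-j) := by
    calc _ = r * (x ^ i * y ^ j) * r⁻¹ := by rw [← cr, mul_inv_cancel_right]
      _ = (r * x * r⁻¹) ^ i * (r * y * r⁻¹) ^ j := by rw [conj_zpow, conj_zpow]; group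
      _ = _ := by rw [h.rx, h.ry]; simp
  have e2 : x ^ i * y ^ j = x ^ j * y ^ i := by
    calc _ = s * (x ^ i * y ^ j) * s⁻¹ := by rw [← cs, mul_inv_cancel_right]
      _ = (s * x * s⁻¹) ^ i * (s * y * s⁻¹) ^ j := by rw [conj_zpow, conj_zpow]; group
      _ = _ := by rw [h.sx, h.sy, (xy.zpow_zpow j i).eq]
  have e3 : x ^ (2 * i) = y ^ (-(2 * j)) := by
    calc _ = x ^ i * (x ^ i * y ^ j) * y ^ (-j) := by group
      _ = _ := by rw [e1]; group
  have e4 : x ^ (i - j) = y ^ (i - j) := by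
    calc _ = x ^ (-j) * (x ^ i * y ^ j) * y ^ (-j) := by group
      _ = _ := by rw [e2]; group
  have e5 : y ^ j = y ^ i := by
    have := h.eq1 e4
    rw [e4, zpow_sub, mul_inv_eq_one] at this
    exact this.symm
  have e6 := orderOf_dvd_iff_zpow_eq_one.2 (h.eq1 e3)
  rw [h.ox, pow_succ' 2 (k + 1)] at e6
  push_cast at e6
  obtain ⟨m, rfl⟩ := Int.dvd_of_mul_dvd_mul_left two_ne_zero e6
  have e7 : ((x * y) ^ 2 ^ (k + 1)) ^ (2 : ℤ) = 1 := by
    rw [zpow_two, ← pow_add, ← two_mul, ← pow_succ', xy.mul_pow, ← h.ox, pow_orderOf_eq_one, h.ox,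
      ← h.oy, pow_orderOf_eq_one, one_mul]
  have e8 : x ^ ((2 : ℤ) ^ (k + 1) * m) * y ^ j = ((x * y) ^ 2 ^ (k + 1)) ^ m := by
    rw [e5, ← xy.mul_zpow, zpow_mul, ← zpow_natCast]; simp
  rw [e8]
  rcases Int.even_or_odd' m with ⟨n, rfl | rfl⟩
  · left; rw [zpow_mul, e7, one_zpow]
  · right; rw [zpow_add, zpow_mul, e7]; simp

theorem pull {P : Type*} [Group P] (f : P →* G) (hf : Function.Injective f)
    (e : f.range = zpowers x ⊔ zpowers y ⊔ zpowers s ⊔ zpowers r) :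
    ∃ x' y' s' r' : P, orderOf x' = 2 ^ (k + 2) ∧ orderOf y' = 2 ^ (k + 2) ∧ x' * y' = y' * x' ∧
      zpowers x' ⊓ zpowers y' = ⊥ ∧ s' * s' = 1 ∧ r' * r' = 1 ∧ s' * r' = r' * s' ∧
      s' * x' * s'⁻¹ = y' ∧ r' * x' * r'⁻¹ = x'⁻¹ ∧ r' * y' * r'⁻¹ = y'⁻¹ ∧
      closure {x', y', s', r'} = ⊤ := by
  obtain ⟨x', rfl⟩ : x ∈ f.range :=
    e ▸ mem_sup_left (mem_sup_left (mem_sup_left (mem_zpowers x)))
  obtain ⟨y', rfl⟩ : y ∈ f.range :=
    e ▸ mem_sup_left (mem_sup_left (mem_sup_right (mem_zpowers y)))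
  obtain ⟨s', rfl⟩ : s ∈ f.range := e ▸ mem_sup_left (mem_sup_right (mem_zpowers s))
  obtain ⟨r', rfl⟩ : r ∈ f.range := e ▸ mem_sup_right (mem_zpowers r)
  refine ⟨x', y', s', r', (orderOf_injective f hf x').symm.trans h.ox,
    (orderOf_injective f hf y').symm.trans h.oy, hf (by simpa using h.cm), ?_,
    hf (by simpa using h.ss), hf (by simpa using h.rr), hf (by simpa using h.sr),
    hf (by simpa using h.sx), hf (by simpa using h.rx), hf (by simpa using h.ry), ?_⟩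
  · refine map_injective hf ?_
    rw [map_inf _ _ _ hf, MonoidHom.map_zpowers, MonoidHom.map_zpowers, h.inf, Subgroup.map_bot]
  · refine map_injective hf (le_antisymm (map_mono le_top) ?_)
    rw [← MonoidHom.range_eq_map, e]
    refine sup_le (sup_le (sup_le ?_ ?_) ?_) ?_ <;>
      exact zpowers_le.2 (mem_map_of_mem f (subset_closure (by simp)))

end Pres
end

variable {F : Type*} [Field F] [Fintype F]

abbrev E (F : Type*) [Field F] := QuadraticAlgebra F (-1) 0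

theorem two_ne (hF : Odd (Fintype.card F)) : (2 : F) ≠ 0 := by
  intro h
  have : ringChar F = 2 := CharP.ringChar_of_prime_eq_zero Nat.prime_two (by exact_mod_cast h)
  have := FiniteField.even_card_iff_char_two.1 this
  obtain ⟨m, hm⟩ := hF
  omega

theorem ex_ord {K : Type*} [Field K] [Finite K] {n : ℕ} (h : n ∣ Nat.card K - 1) :
    ∃ a : K, orderOf a = n := by
  obtain ⟨g, hg⟩ := IsCyclic.exists_ofOrder_eq_natCard (α := Kˣ)
  rw [Nat.card_units] at hg
  obtain ⟨m, hm⟩ := h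
  have m0 : m ≠ 0 := by
    rintro rfl
    have := Finite.one_lt_card (α := K)
    omega
  refine ⟨(g ^ m : Kˣ), ?_⟩
  rw [orderOf_units, orderOf_pow_of_dvd m0 (by rw [hg, hm]; simp), hg, hm]
  exact Nat.mul_div_cancel _ (Nat.pos_of_ne_zero m0)

theorem ex_zeta (hF : Odd (Fintype.card F)) : ∃ k m : ℕ, Odd m ∧
    Fintype.card F ^ 2 - 1 = 2 ^ (k + 3) * m ∧
      ∃ z : E F, z.re ^ 2 + z.im ^ 2 = 1 ∧ orderOf z = 2 ^ (k + 2) := by
  have h2 := two_ne hF
  have q1 : 1 < Fintype.card F := Fintype.one_lt_card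
  have hq := FiniteField.isSquare_neg_one_iff (F := F)
  have hp := FiniteField.pow_card_sub_one_eq_one (K := F)
  have hc : Nat.card F = Fintype.card F := Nat.card_eq_fintype_card
  have hE : Nat.card (E F) = Fintype.card F ^ 2 := by
    rw [Nat.card_congr (QuadraticAlgebra.equivProd _ _), Nat.card_prod, hc, pow_two]
  generalize Fintype.card F = q at *
  obtain ⟨b, rfl⟩ := hF
  have e0 : (2 * b + 1) ^ 2 - 1 = 4 * (b * (b + 1)) := by
    rw [Nat.sub_eq_iff_eq_add (Nat.one_le_pow _ _ (by omega))]; ring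
  obtain ⟨c, hc'⟩ := (Nat.even_mul_succ_self b).two_dvd
  obtain ⟨k, m, hm, e⟩ := Nat.exists_eq_two_pow_mul_odd (n := c) (by
    rintro rfl
    have : 0 < b * (b + 1) := Nat.mul_pos (by omega) (by omega)
    omega)
  have e1 : (2 * b + 1) ^ 2 - 1 = 2 ^ (k + 3) * m := by rw [e0, hc', e]; ring
  refine ⟨k, m, hm, e1, ?_⟩
  by_cases hs : IsSquare (-1 : F)
  · obtain ⟨i, hi⟩ := hs
    have i0 : i ≠ 0 := fun e => by simp [e] at hi
    have hb : Even b := by have := hq.1 ⟨i, hi⟩; rw [Nat.even_iff]; omega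
    obtain ⟨l, hl⟩ := ex_ord (K := F) (n := 2 ^ (k + 2)) (by
      rw [hc, Nat.add_sub_cancel, pow_succ']
      refine Nat.mul_dvd_mul_left 2 ((Nat.Coprime.pow_left _ (Nat.coprime_two_left.2
        hb.add_one)).dvd_of_dvd_mul_right ?_)
      rw [hc', e]; exact ⟨m, by ring⟩)
    have l0 : l ≠ 0 := by
      rintro rfl
      rw [orderOf_zero] at hl
      exact (pow_ne_zero _ two_ne_zero) hl.symm
    let φ : E F →* F × F :=
      { toFun := fun z => (z.re + z.im * i, z.re - z.im * i)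
        map_one' := by simp [QuadraticAlgebra.re_one, QuadraticAlgebra.im_one]
        map_mul' := fun z w => Prod.ext (by simp; linear_combination z.im * w.im * hi)
          (by simp; linear_combination z.im * w.im * hi) }
    have hφ : Function.Injective φ := fun z w e => by
      obtain ⟨a1, a2⟩ := Prod.ext_iff.1 e
      simp only [φ, MonoidHom.coe_mk, OneHom.coe_mk] at a1 a2
      ext
      · exact mul_left_cancel₀ h2 (by linear_combination a1 + a2)
      · exact mul_left_cancel₀ (mul_ne_zero h2 i0) (by linear_combination a1 - a2)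
    refine ⟨⟨(l + l⁻¹) / 2, (l - l⁻¹) / (2 * i)⟩, ?_, ?_⟩
    · field_simp
      linear_combination -(l ^ 2 - 1) ^ 2 * hi
    · rw [← orderOf_injective φ hφ, show φ ⟨(l + l⁻¹) / 2, (l - l⁻¹) / (2 * i)⟩ = (l, l⁻¹) from
        Prod.ext (by simp only [φ, MonoidHom.coe_mk, OneHom.coe_mk]; field_simp; ring)
          (by simp only [φ, MonoidHom.coe_mk, OneHom.coe_mk]; field_simp; ring), ← hl]
      exact orderOf_eq_orderOf_iff.2 fun n => by simp [Prod.ext_iff]
  · have : Fact (∀ r : F, r ^ 2 ≠ -1 + 0 * r) := ⟨fun r e => hs ⟨r, by linear_combination -e⟩⟩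
    have : Finite (E F) := Finite.of_equiv _ (QuadraticAlgebra.equivProd _ _).symm
    obtain ⟨η, hη⟩ := ex_ord (K := E F) (n := 2 ^ (k + 3)) (by rw [hE, e1]; simp)
    have hb : Odd b := by have := mt hq.2 hs; rw [Nat.odd_iff]; omega
    have n1 : η.norm ^ 2 ^ (k + 3) = 1 := by rw [← map_pow, ← hη, pow_orderOf_eq_one, map_one]
    have n0 : η.norm ≠ 0 := fun e => by simp [e] at n1
    have n2 : η.norm ^ 2 = 1 := by
      have := Nat.dvd_gcd (orderOf_dvd_of_pow_eq_one n1) (orderOf_dvd_of_pow_eq_one (hp _ n0))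
      rw [Nat.add_sub_cancel, pow_succ', Nat.gcd_mul_left,
        Nat.Coprime.pow_left _ (Nat.coprime_two_left.2 hb), mul_one] at this
      exact orderOf_dvd_iff_pow_eq_one.1 this
    refine ⟨η ^ 2, ?_, ?_⟩
    · rw [← map_pow, QuadraticAlgebra.norm_def] at n2
      linear_combination n2
    · rw [orderOf_pow_of_dvd two_ne_zero (by rw [hη]; exact dvd_pow_self 2 (by omega)), hη, pow_succ]
      simp

end G2
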