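import Cfsg.Agent.G2.E
import Cfsg.Agent.G2.F

/-! The Sylow 2-subgroup of `G₂(q)`, `q` odd. -/

set_option autoImplicit false
set_option linter.unusedSectionVars false
set_option linter.unusedSimpArgs false

namespace G2

open Cfsg Cfsg.Lie Matrix Subgroup FT H4
open scoped MatrixGroups

variable {F : Type*} [Field F]

def mE : E F →* Matrix (Fin 2) (Fin 2) F where
  toFun z := !![z.re, -z.im; z.im, z.re]
  map_one' := by
    ext i j; fin_cases i <;> fin_cases j <;>
      simp [QuadraticAlgebra.re_one, QuadraticAlgebra.im_one]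
  map_mul' z w := by
    ext i j; fin_cases i <;> fin_cases j <;> simp [Matrix.mul_apply, Fin.sum_univ_two] <;> ring

theorem pow_ent {g : GL (Fin 2) F} {z : E F} (h : g.1 = mE z) (n : ℕ) :
    (g ^ n) 0 0 = (z ^ n).re ∧ (g ^ n) 0 1 = -(z ^ n).im ∧ (g ^ n) 1 0 = (z ^ n).im ∧
      (g ^ n) 1 1 = (z ^ n).re := by
  have : (g ^ n).1 = mE (z ^ n) := by rw [Units.val_pow_eq_pow_val, h, map_pow]
  exact ⟨congrFun (congrFun this 0) 0, congrFun (congrFun this 0) 1, congrFun (congrFun this 1) 0,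
    congrFun (congrFun this 1) 1⟩

def J : GL (Fin 2) F := mk2 0 (-1) 1 0 (by simp)

theorem ker_le : (rho (F := F)).ker ≤ (Cen1 J).comap (MonoidHom.fst _ _) ⊓
    (Cen1 J).comap (MonoidHom.snd _ _) := by
  rintro ⟨g, k⟩ h
  obtain ⟨a, b, c, rfl⟩ := rho_ker h
  have : k ∈ Cen1 J := mem_centralizer_singleton_iff.2
    (gl_ext (by simp [gl_mul, J, a, b]) (by simp [gl_mul, J, c]) (by simp [gl_mul, J, c])
      (by simp [gl_mul, J, a, b]))
  exact ⟨this, this⟩

theorem mem_of_map {K : Subgroup (GL (Fin 2) F × GL (Fin 2) F)} (h : rho.ker ≤ K)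
    {g : GL (Fin 2) F × GL (Fin 2) F} (hg : rho g ∈ K.map rho) : g ∈ K := by
  rw [← mem_comap, comap_map_eq, sup_eq_left.2 h] at hg
  exact hg

/-- pairs with equal determinants -/
def K0 (F : Type*) [Field F] : Subgroup (GL (Fin 2) F × GL (Fin 2) F) :=
  MonoidHom.ker (GeneralLinearGroup.det.comp (MonoidHom.fst _ _) /
    GeneralLinearGroup.det.comp (MonoidHom.snd _ _) : GL (Fin 2) F × GL (Fin 2) F →* Fˣ)

theorem mem_K0 {g k : GL (Fin 2) F} : (g, k) ∈ K0 F ↔ dt g = dt k := by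
  rw [dt_eq, dt_eq, Units.val_inj, ← div_eq_one]; rfl

theorem card_H [Fintype F] : Nat.card ((K0 F).map rho) ∣
    (Fintype.card F * (Fintype.card F ^ 2 - 1)) ^ 2 := by
  classical
  have cu : Nat.card Fˣ = Fintype.card F - 1 := by rw [Nat.card_units, Nat.card_eq_fintype_card]
  have e1 : Nat.card (K0 F) * Nat.card Fˣ = Nat.card (GL (Fin 2) F × GL (Fin 2) F) := by
    rw [← card_mul_index (K0 F), K0, index_ker, MonoidHom.range_eq_top.2, card_top]
    intro u
    refine ⟨(mk2 u 0 0 1 (by simp), 1), Units.ext ?_⟩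
    simp [det_fin_two]
  have hs : Function.Injective ((GeneralLinearGroup.scalar (Fin 2) (R := F)).prod
      (GeneralLinearGroup.scalar (Fin 2))) := fun u v e =>
    Units.ext (by simpa using congrArg (fun g => g.1 0 0) e)
  have e2 : Nat.card Fˣ ∣ Nat.card ↥(rho.ker ⊓ K0 F) := by
    rw [← card_top, ← card_map_of_injective hs]
    refine card_dvd_of_le ?_
    rintro _ ⟨u, -, rfl⟩
    exact ⟨rho_sc (by simp) (by simp) (by simp), mem_K0.2 rfl⟩
  have e3 := H5.card_inf_mul_relIndex (rho (F := F)).ker (K0 F)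
  rw [relIndex_ker] at e3
  obtain ⟨c, hc⟩ := e2
  have q1 : 1 < Fintype.card F := Fintype.one_lt_card
  rw [← e3, hc, cu, Nat.card_prod, card_GL_field, Fin.prod_univ_two] at e1
  refine ⟨c, Nat.eq_of_mul_eq_mul_left (pow_pos (Nat.sub_pos_of_lt q1) 2) ?_⟩
  generalize Fintype.card F = q at *
  obtain ⟨n, rfl⟩ : ∃ n, q = n + 1 := ⟨q - 1, by omega⟩
  have a : (n + 1) ^ 2 - 1 = n * (n + 2) := by
    rw [Nat.sub_eq_iff_eq_add (Nat.one_le_pow _ _ (by omega))]; ring
  have b : (n + 1) ^ 2 - (n + 1) = n * (n + 1) := by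
    rw [Nat.sub_eq_iff_eq_add (by nlinarith)]; ring
  simp only [Fin.val_zero, Fin.val_one, pow_zero, pow_one, a, b, Nat.add_sub_cancel] at e1 ⊢
  linarith

theorem ex_pres (h2 : (2 : F) ≠ 0) [Finite F] {k : ℕ} {z : E F} (hz : z.re ^ 2 + z.im ^ 2 = 1)
    (oz : orderOf z = 2 ^ (k + 2)) : ∃ x y s r : GL (Fin 2) F × GL (Fin 2) F,
    x ∈ K0 F ∧ y ∈ K0 F ∧ s ∈ K0 F ∧ r ∈ K0 F ∧ Pres k (rho x) (rho y) (rho s) (rho r) ∧
      rho s ∉ zpowers (rho x) ⊔ zpowers (rho y) ∧
      rho r ∉ zpowers (rho x) ⊔ zpowers (rho y) ⊔ zpowers (rho s) := by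
  have : Finite (M F) := Finite.of_injective _ (Function.LeftInverse.injective (oi_io h2))
  obtain ⟨u, v, huv⟩ : ∃ u v : F, u ^ 2 + v ^ 2 = -1 := by
    obtain ⟨p, hp⟩ := CharP.exists F
    have : NeZero p := ⟨CharP.char_ne_zero_of_finite F p⟩
    obtain ⟨a, b, e⟩ := CharP.sq_add_sq F p (-1)
    exact ⟨a, b, by simpa using e⟩
  have n : (1 + z.re) * (1 + z.re) - -z.im * z.im ≠ 0 := fun e => by
    have a : z.re = -1 := mul_left_cancel₀ h2 (by linear_combination e - hz)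
    have b : z.im = 0 := pow_eq_zero_iff two_ne_zero |>.1 (by rw [a] at hz; linear_combination hz)
    have := orderOf_dvd_of_pow_eq_one (x := z) (n := 2) (by
      rw [pow_two]; ext <;> simp [a, b, QuadraticAlgebra.re_one, QuadraticAlgebra.im_one])
    rw [oz, pow_add] at this
    have := Nat.le_of_dvd two_pos this
    have : 0 < 2 ^ k := by positivity
    omega
  have n' : (1 + z.re) * (1 + z.re) - z.im * -z.im ≠ 0 := fun e => n (by linear_combination e)
  have n1 : u * -u - v * v ≠ 0 := by rw [show u * -u - v * v = 1 by linear_combination -huv]; simp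
  have n2 : u * -u - -v * -v ≠ 0 := fun e => n1 (by linear_combination e)
  have n3 : v * -v - -u * -u ≠ 0 := fun e => n1 (by linear_combination e)
  let w : E F := ⟨1 + z.re, z.im⟩
  have key : ∀ m : ℕ, (w ^ m).im = 0 ↔ z ^ m = 1 := fun m => by
    have e : w = z * star w := by
      ext <;> simp [w]
      · linear_combination -hz
      · ring
    have un : IsUnit (star w ^ m) := IsUnit.pow m (QuadraticAlgebra.isUnit_iff_norm_isUnit.2
      (by rw [QuadraticAlgebra.norm_def]; simp [w]; intro e; exact n (by linear_combination e)))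
    have e' : w ^ m = z ^ m * star w ^ m := by rw [← mul_pow, ← e]
    rw [← un.mul_left_inj, ← e', one_mul, ← star_pow w m]
    generalize w ^ m = t
    refine ⟨fun h => by ext <;> simp [h], fun h => ?_⟩
    have := congrArg QuadraticAlgebra.im h
    simp only [QuadraticAlgebra.im_star] at this
    exact neg0 h2 this.symm
  set X := mk2 (1 + z.re) (-z.im) z.im (1 + z.re) n with hX
  set Y := mk2 (1 + z.re) z.im (-z.im) (1 + z.re) n' with hY
  have pX := pow_ent (g := X) (z := w) rfl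
  have pY := pow_ent (g := Y) (z := star w) (by
    ext i j; fin_cases i <;> fin_cases j <;> simp [mE, w, hY])
  simp only [← star_pow, QuadraticAlgebra.im_star, QuadraticAlgebra.re_star, zero_mul,
    add_zero] at pY
  have kY : ∀ m : ℕ, Y ^ m = X ^ m → rho (X, Y) ^ m = 1 := fun m e => by
    have i : (w ^ m).im = 0 := neg0 h2 (by rw [← (pY m).2.2.1, e, (pX m).2.2.1])
    rw [← map_pow, Prod.pow_mk, e]
    exact rho_sc (by rw [(pX m).2.1, i, neg_zero]) (by rw [(pX m).2.2.1, i])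
      (by rw [(pX m).1, (pX m).2.2.2])
  have XY : X * Y = Y * X := gl_ext (by simp [gl_mul, hX, hY]) (by simp [gl_mul, hX, hY]; ring)
    (by simp [gl_mul, hX, hY]; ring) (by simp [gl_mul, hX, hY])
  have XJ : X ∈ Cen1 J := mem_centralizer_singleton_iff.2 (gl_ext (by simp [gl_mul, hX, J])
    (by simp [gl_mul, hX, J]) (by simp [gl_mul, hX, J]) (by simp [gl_mul, hX, J]))
  have YJ : Y ∈ Cen1 J := mem_centralizer_singleton_iff.2 (gl_ext (by simp [gl_mul, hY, J])
    (by simp [gl_mul, hY, J]) (by simp [gl_mul, hY, J]) (by simp [gl_mul, hY, J]))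
  have JJ : (J : GL (Fin 2) F) ∈ Cen1 J := mem_centralizer_singleton_iff.2 rfl
  have sc : ∀ (c : F) (h : c * c - 0 * 0 ≠ 0) (a b : GL (Fin 2) F × GL (Fin 2) F),
      a = (mk2 c 0 0 c h, mk2 c 0 0 c h) * b → rho a = rho b := fun c h a b e => by
    rw [e, map_mul, rho_sc rfl rfl rfl, one_mul]
  have m1 : (-1 : F) * -1 - 0 * 0 ≠ 0 := by simp
  have mD : dt X * dt X - 0 * 0 ≠ 0 := by simpa using dt_ne X
  refine ⟨(X, X), (X, Y), (J, mk2 u v v (-u) n1), (mk2 u (-v) (-v) (-u) n2, mk2 v (-u) (-u) (-v) n3),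
    mem_K0.2 rfl, mem_K0.2 (by simp [hX, hY]), mem_K0.2 (by simp [J]; linear_combination huv),
    mem_K0.2 (by simp; ring), ⟨?_, ?_, ?_, ?_, ?_, ?_, ?_, ?_, ?_, ?_⟩, fun h => ?_, fun h => ?_⟩
  · rw [← oz]
    refine orderOf_eq_orderOf_iff.2 fun m => ?_
    rw [← key, ← map_pow, Prod.pow_mk]
    exact ⟨fun h => by rw [← (pX m).2.2.1, (rho_ker h).2.1], fun i =>
      rho_sc (by rw [(pX m).2.1, i, neg_zero]) (by rw [(pX m).2.2.1, i])
        (by rw [(pX m).1, (pX m).2.2.2])⟩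
  · rw [← oz]
    refine orderOf_eq_orderOf_iff.2 fun m => ?_
    rw [← key]
    refine ⟨fun h => ?_, fun i => kY m ?_⟩
    · rw [← map_pow, Prod.pow_mk] at h
      rw [← (pX m).2.2.1, (rho_ker h).2.1]
    · obtain ⟨a, b, c, d⟩ := pX m
      obtain ⟨a', b', c', d'⟩ := pY m
      exact gl_ext (by rw [a, a']) (by simp [b, b', i]) (by simp [c, c', i]) (by rw [d, d'])
  · rw [← map_mul, ← map_mul, Prod.mk_mul_mk, Prod.mk_mul_mk, XY]
  · refine eq_bot_iff.2 fun c ⟨a, b⟩ => ?_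
    obtain ⟨i, rfl⟩ := (mem_powers_iff_mem_zpowers.2 a)
    obtain ⟨j, e⟩ := (mem_powers_iff_mem_zpowers.2 b)
    simp only at e ⊢
    rw [← e]
    refine kY j ?_
    rw [← mul_inv_eq_one, ← map_pow, ← map_pow, ← map_inv, ← map_mul] at e
    exact mul_right_cancel (rho_ker e).2.2.2
  · rw [← map_mul, ← map_one rho]
    refine sc _ m1 _ _ (Prod.ext (gl_ext ?_ ?_ ?_ ?_) (gl_ext ?_ ?_ ?_ ?_)) <;> simp [gl_mul, J]
    exacts [by linear_combination huv, by ring, by ring, by linear_combination huv]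
  · rw [← map_mul, ← map_one rho]
    refine sc _ m1 _ _ (Prod.ext (gl_ext ?_ ?_ ?_ ?_) (gl_ext ?_ ?_ ?_ ?_)) <;> simp [gl_mul, J]
    exacts [by linear_combination huv, by ring, by ring, by linear_combination huv,
      by linear_combination huv, by ring, by ring, by linear_combination huv]
  · rw [← map_mul, ← map_mul]
    refine sc _ m1 _ _ (Prod.ext (gl_ext ?_ ?_ ?_ ?_) (gl_ext ?_ ?_ ?_ ?_)) <;>
      simp [gl_mul, J] <;> ring
  · rw [mul_inv_eq_iff_eq_mul, ← map_mul, ← map_mul]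
    congr 1
    refine Prod.ext (gl_ext ?_ ?_ ?_ ?_) (gl_ext ?_ ?_ ?_ ?_) <;>
      simp [gl_mul, J, hX, hY] <;> ring
  · rw [mul_inv_eq_iff_eq_mul, eq_inv_mul_iff_mul_eq, ← map_mul, ← map_mul]
    refine sc _ mD _ _ (Prod.ext (gl_ext ?_ ?_ ?_ ?_) (gl_ext ?_ ?_ ?_ ?_)) <;>
      simp [gl_mul, hX, hY] <;> ring
  · rw [mul_inv_eq_iff_eq_mul, eq_inv_mul_iff_mul_eq, ← map_mul, ← map_mul]
    refine sc _ mD _ _ (Prod.ext (gl_ext ?_ ?_ ?_ ?_) (gl_ext ?_ ?_ ?_ ?_)) <;>
      simp [gl_mul, hX, hY] <;> ring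
  · have : mk2 u v v (-u) n1 * J = J * mk2 u v v (-u) n1 :=
      mem_centralizer_singleton_iff.1 (mem_of_map (ker_le.trans inf_le_right)
      ((sup_le (zpowers_le.2 (mem_map_of_mem rho (x := (X, X)) XJ))
        (zpowers_le.2 (mem_map_of_mem rho (x := (X, Y)) YJ))) h))
    have a := congrArg (fun g : GL (Fin 2) F => g 0 0) this
    have b := congrArg (fun g : GL (Fin 2) F => g 0 1) this
    simp [gl_mul, J] at a b
    exact n1 (by rw [neg0 h2 a.symm, neg0 h2 b]; simp)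
  · have : mk2 u (-v) (-v) (-u) n2 * J = J * mk2 u (-v) (-v) (-u) n2 :=
      mem_centralizer_singleton_iff.1 (mem_of_map (ker_le.trans inf_le_left)
      (g := (mk2 u (-v) (-v) (-u) n2, mk2 v (-u) (-u) (-v) n3))
      ((sup_le (sup_le (zpowers_le.2 (mem_map_of_mem rho (x := (X, X)) XJ))
        (zpowers_le.2 (mem_map_of_mem rho (x := (X, Y)) XJ)))
        (zpowers_le.2 (mem_map_of_mem rho (x := (J, mk2 u v v (-u) n1)) JJ))) h))
    have a := congrArg (fun g : GL (Fin 2) F => g 0 0) this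
    have b := congrArg (fun g : GL (Fin 2) F => g 0 1) this
    simp [gl_mul, J] at a b
    exact n1 (by rw [neg0 h2 a, neg0 h2 b]; simp)

/-- **The Sylow 2-subgroup of `G₂(q)`** is `(Z_N × Z_N) ⋊ (Z₂ × Z₂)`. -/
theorem sylow {F : Type*} [Field F] [Fintype F] (hF : Odd (Fintype.card F))
    (P : Sylow 2 ↥(chevG2.group F)) :
    ∃ (k : ℕ) (x y s r : ↥(P : Subgroup ↥(chevG2.group F))),
      orderOf x = 2 ^ (k + 2) ∧ orderOf y = 2 ^ (k + 2) ∧ x * y = y * x ∧
      zpowers x ⊓ zpowers y = ⊥ ∧ s * s = 1 ∧ r * r = 1 ∧ s * r = r * s ∧ s * x * s⁻¹ = y ∧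
      r * x * r⁻¹ = x⁻¹ ∧ r * y * r⁻¹ = y⁻¹ ∧
      Nat.card ↥(P : Subgroup ↥(chevG2.group F)) = 4 * (2 ^ (k + 2)) ^ 2 ∧
      closure {x, y, s, r} = ⊤ := by
  have h2 := two_ne hF
  have : Finite (M F) := Finite.of_injective _ (Function.LeftInverse.injective (oi_io h2))
  obtain ⟨k, m, hm, e, z, hz, oz⟩ := ex_zeta hF
  obtain ⟨x, y, s, r, hx, hy, hs, hr, p, n1, n2⟩ := ex_pres h2 hz oz
  have c := p.card n1 n2
  set S := zpowers (rho x) ⊔ zpowers (rho y) ⊔ zpowers (rho s) ⊔ zpowers (rho r) with hS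
  have HG : (K0 F).map rho ≤ Ga h2 := by
    rintro _ ⟨⟨g, k⟩, h, rfl⟩
    exact rho_mem h2 (mem_K0.1 h)
  have SH : S ≤ (K0 F).map rho := sup_le (sup_le (sup_le (zpowers_le.2 (mem_map_of_mem _ hx))
    (zpowers_le.2 (mem_map_of_mem _ hy))) (zpowers_le.2 (mem_map_of_mem _ hs)))
    (zpowers_le.2 (mem_map_of_mem _ hr))
  have S2 : IsPGroup 2 S := IsPGroup.of_card (n := 2 * k + 6) (by rw [c]; ring)
  have y1 : H5.IsSylowOf 2 S ((K0 F).map rho) := ⟨SH, S2, fun ⟨d, hd⟩ => by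
    have a := H5.card_inf_mul_relIndex S ((K0 F).map rho)
    have b := card_H (F := F)
    rw [← a, inf_eq_left.2 SH, c, hd, e] at b
    have b' : 2 ^ (2 * k + 6) * 2 ∣ 2 ^ (2 * k + 6) * (Fintype.card F * m) ^ 2 :=
      (Dvd.intro d (by ring)).trans (b.trans (Dvd.intro 1 (by ring)))
    exact (hF.mul hm).pow.not_two_dvd_nat (Nat.dvd_of_mul_dvd_mul_left (by positivity) b')⟩
  have m1 : (-1 : F) * -1 - 0 * 0 ≠ 0 := by simp
  have zf' : ∀ v, rho (mk2 (-1) 0 0 (-1) m1, 1) v = zf v := fun v => by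
    rw [rho_apply, map_one, mul_one, r1_apply]
    ext <;> simp [R1, zf]
  have zH : rho (mk2 (-1) 0 0 (-1) m1, 1) ∈ (K0 F).map rho :=
    mem_map_of_mem _ (mem_K0.2 (by simp [dt]))
  generalize rho (mk2 (-1) 0 0 (-1) m1, 1) = ζ at zf' zH
  have zc : ∀ g ∈ S, ζ * g = g * ζ := fun g hg => by
    obtain ⟨⟨a, b⟩, -, rfl⟩ := SH hg
    exact Equiv.ext fun v => by
      simp only [Equiv.Perm.mul_apply, zf', rho_apply]
      rw [(par_r2 h2 b).z, (par_r1 h2 a).z]
  have zz : ζ ^ 2 ^ 1 = 1 := Equiv.ext fun v => by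
    simp [pow_two, zf', zf]
  have zS : ζ ∈ S := y1.le_of_le_normalizer' (isPGroup_zpowers_of_pow zz) (zpowers_le.2 zH)
    (zpowers_le.2 (centralizer_le_normalizer _ (mem_centralizer_iff.2 fun g hg => (zc g hg).symm)))
    (mem_zpowers ζ)
  have z1 : ζ ≠ 1 := fun e => by
    have := congrArg M.c0 (zf' (eW 1 0 0 0 0 0 0 0))
    rw [e] at this
    exact one_ne_zero (neg0 h2 this.symm)
  have xS : rho x ∈ S := mem_sup_left (mem_sup_left (mem_sup_left (mem_zpowers _)))
  have sS : rho s ∈ S := mem_sup_left (mem_sup_right (mem_zpowers _))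
  have rS : rho r ∈ S := mem_sup_right (mem_zpowers _)
  have y2 : H5.IsSylowOf 2 S (Ga h2) := H5.IsSylowOf.of_normalizer (y1.of_le
    (le_inf (SH.trans HG) le_normalizer) fun g hg => by
      have cj : ∀ a ∈ S, g * ζ * g⁻¹ * a = a * (g * ζ * g⁻¹) := fun a ha => by
        have := zc _ ((mem_normalizer_iff''.1 hg.2 a).1 ha)
        calc _ = g * (ζ * (g⁻¹ * a * g)) * g⁻¹ := by group
          _ = _ := by rw [this]; group
      have e1 := (p.cen zS (zc _ xS) (zc _ sS) (zc _ rS)).resolve_left z1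
      have e2 := (p.cen ((mem_normalizer_iff.1 hg.2 ζ).1 zS) (cj _ xS) (cj _ sS)
        (cj _ rS)).resolve_left fun e => z1 (by simpa using e)
      rw [← e1, mul_inv_eq_iff_eq_mul] at e2
      obtain ⟨a, b, d, rfl⟩ := cen_z h2 hg.1 fun v => by
        rw [← zf', ← zf']; exact congrArg (fun φ : Equiv.Perm (M F) => φ v) e2
      exact mem_map_of_mem _ (mem_K0.2 d))
  have : Finite (chevG2.group F) := Finite.of_injective _
    ((al_inj h2).comp (chevG2.group F).subtype_injective)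
  have y3 := (H5.isSylowOf_top P).map ((al h2).comp (chevG2.group F).subtype)
  rw [← MonoidHom.range_eq_map, MonoidHom.range_comp, range_subtype] at y3
  obtain ⟨g, -, hg⟩ := y3.exists_conj y2
  have hf : Function.Injective ((MulAut.conj g).toMonoidHom.comp (((al h2).comp
      (chevG2.group F).subtype).comp (P : Subgroup (chevG2.group F)).subtype)) :=
    (MulAut.conj g).injective.comp ((al_inj h2).comp
      ((chevG2.group F).subtype_injective.comp (Subgroup.subtype_injective _)))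
  have hr : ((MulAut.conj g).toMonoidHom.comp (((al h2).comp
      (chevG2.group F).subtype).comp (P : Subgroup (chevG2.group F)).subtype)).range = S := by
    rw [MonoidHom.range_comp, MonoidHom.range_comp, range_subtype, hg]
  obtain ⟨x', y', s', r', a1, a2, a3, a4, a5, a6, a7, a8, a9, a10, a11⟩ := p.pull _ hf hr
  exact ⟨k, x', y', s', r', a1, a2, a3, a4, a5, a6, a7, a8, a9, a10,
    by rw [← c, ← hr, MonoidHom.range_eq_map, card_map_of_injective hf, card_top], a11⟩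

end G2
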